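import Cfsg.Agent.H21.QuotientUnique
import Cfsg.Agent.H88.MaximalIndexSq

/-!
The automorphism group of a solvable group acting fixed-point-freely is solvable.
-/

namespace Cfsg.Agent.H21.TIHall

open Zass

universe u

/-- The action induced on a quotient by an invariant normal subgroup. -/
def quotAut {A N : Type*} [Group A] [Group N] (φ : A →* MulAut N) (C : Subgroup N) [C.Normal]
    (hC : ∀ a, C.map (φ a).toMonoidHom = C) : A →* MulAut (N ⧸ C) where
  toFun a := QuotientGroup.congr C C (φ a) (hC a)
  map_one' := by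
    refine MulEquiv.ext fun x => ?_
    induction x using QuotientGroup.induction_on with | H x => simp
  map_mul' a b := by
    refine MulEquiv.ext fun x => ?_
    induction x using QuotientGroup.induction_on with | H x => simp; rfl

theorem quotAut_mk {A N : Type*} [Group A] [Group N] (φ : A →* MulAut N) (C : Subgroup N) [C.Normal]
    (hC : ∀ a, C.map (φ a).toMonoidHom = C) (a : A) (x : N) :
    quotAut φ C hC a (x : N ⧸ C) = (φ a x : N ⧸ C) := rfl

/-- A characteristic subgroup with solvable automorphism groups on it and on the quotient gives a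
solvable automorphism group. -/
theorem isSolvable_mulAut_of_char {H : Type*} [Group H] (K : Subgroup H) [K.Characteristic]
    (h1 : Group.IsSolvable (MulAut K)) (h2 : Group.IsSolvable (MulAut (H ⧸ K))) :
    Group.IsSolvable (MulAut H) := by
  have hK : ∀ (α : MulAut H), K.map α.toMonoidHom = K := fun α =>
    Subgroup.characteristic_iff_map_eq.mp inferInstance α
  have hmem : ∀ (α : MulAut H), ∀ w ∈ K, (MonoidHom.id (MulAut H)) α w ∈ K := fun α w hw =>
    (hK α).le ⟨w, hw, rfl⟩
  let Φ : MulAut H →* MulAut K × MulAut (H ⧸ K) :=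
    (restrictAut (MonoidHom.id _) K hmem).prod (quotAut (MonoidHom.id _) K hK)
  -- automorphisms trivial on both differ from the identity by central elements of `K`
  have hker : ∀ α : MulAut H, Φ α = 1 → (∀ k ∈ K, α k = k) ∧
      ∀ x : H, x⁻¹ * α x ∈ K ∧ ∀ k ∈ K, x⁻¹ * α x * k = k * (x⁻¹ * α x) := by
    intro α hα
    have hk : ∀ k ∈ K, α k = k := fun k hk =>
      congrArg (fun p : MulAut K × MulAut (H ⧸ K) => ((p.1 ⟨k, hk⟩ : K) : H)) hα
    refine ⟨hk, fun x => ⟨?_, fun k hkK => ?_⟩⟩
    · exact QuotientGroup.eq.mp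
        (congrArg (fun p : MulAut K × MulAut (H ⧸ K) => p.2 (x : H ⧸ K)) hα).symm
    · have hc := hk _ ((inferInstance : K.Normal).conj_mem k hkK x)
      rw [map_mul, map_mul, map_inv, hk k hkK] at hc
      calc x⁻¹ * α x * k = x⁻¹ * (α x * k * (α x)⁻¹) * α x := by group
        _ = k * (x⁻¹ * α x) := by rw [hc]; group
  have hcomm : Group.IsSolvable Φ.ker := by
    refine Group.isSolvable_of_comm fun ⟨α, hα⟩ ⟨β, hβ⟩ => Subtype.ext (MulEquiv.ext fun x => ?_)
    obtain ⟨hαk, hαx⟩ := hker α hα
    obtain ⟨hβk, hβx⟩ := hker β hβ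
    show α (β x) = β (α x)
    calc α (β x) = α (x * (x⁻¹ * β x)) := by rw [mul_inv_cancel_left]
      _ = α x * (x⁻¹ * β x) := by rw [map_mul, hαk _ (hβx x).1]
      _ = x * ((x⁻¹ * α x) * (x⁻¹ * β x)) := by group
      _ = x * ((x⁻¹ * β x) * (x⁻¹ * α x)) := by rw [(hαx x).2 _ (hβx x).1]
      _ = β x * (x⁻¹ * α x) := by group
      _ = β (x * (x⁻¹ * α x)) := by rw [map_mul, hβk _ (hαx x).1]
      _ = β (α x) := by rw [mul_inv_cancel_left]
  exact Group.isSolvable_of_ker_le_range Φ.ker.subtype Φ (by rw [Subgroup.range_subtype])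

/-- The automorphism group of a cyclic group is solvable. -/
theorem isSolvable_mulAut_cyclic (C : Type*) [Group C] [Finite C] [IsCyclic C] :
    Group.IsSolvable (MulAut C) :=
  Group.isSolvable_of_comm fun a b => (IsCyclic.mulAutMulEquiv C).injective
    (by rw [map_mul, map_mul, mul_comm])

/-- The automorphism group of a `Z`-group is solvable. -/
theorem isSolvable_mulAut_zgroup (Z : Type*) [Group Z] [Finite Z] [IsZGroup Z] :
    Group.IsSolvable (MulAut Z) := by
  have : IsCyclic (commutator Z) := IsZGroup.isCyclic_commutator Z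
  have : IsCyclic (Z ⧸ commutator Z) := IsZGroup.isCyclic_abelianization
  exact isSolvable_mulAut_of_char (commutator Z) (isSolvable_mulAut_cyclic _) (isSolvable_mulAut_cyclic _)

/-- The automorphism group of a group of order at most four is solvable. -/
theorem isSolvable_mulAut_small (Q : Type*) [Group Q] [Finite Q] (h : Nat.card Q ≤ 4) :
    Group.IsSolvable (MulAut Q) := by
  have := Fintype.ofFinite Q
  obtain ⟨e⟩ : Nonempty (Q ↪ Fin 4) :=
    Function.Embedding.nonempty_of_card_le (by simpa [Nat.card_eq_fintype_card] using h)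
  have := H88.isSolvable_perm_of_card_four (α := Fin 4) (by simp)
  let Ψ : MulAut Q →* Equiv.Perm (Fin 4) :=
    (Equiv.Perm.viaEmbeddingHom e).comp
      { toFun := MulEquiv.toEquiv, map_one' := rfl, map_mul' := fun _ _ => rfl }
  refine Group.isSolvable_of_isSolvable_injective (f := Ψ) ?_
  exact (Equiv.Perm.viaEmbeddingHom_injective e).comp fun a b hab =>
    MulEquiv.toEquiv_injective hab

/-- The Klein subgroup of `A4`. -/
def kleinA4 : Subgroup (alternatingGroup (Fin 4)) where
  carrier := {a | a * a = 1}
  one_mem' := one_mul 1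
  mul_mem' := fun {a b} ha hb => by
    have key : ∀ a b : alternatingGroup (Fin 4), a * a = 1 → b * b = 1 → (a * b) * (a * b) = 1 := by
      decide +kernel
    exact key a b ha hb
  inv_mem' := fun {a} (ha : a * a = 1) => show a⁻¹ * a⁻¹ = 1 by rw [← mul_inv_rev, ha, inv_one]

theorem mem_kleinA4 {a : alternatingGroup (Fin 4)} : a ∈ kleinA4 ↔ a * a = 1 := Iff.rfl

/-- The automorphism group of `A4` is solvable. -/
theorem isSolvable_mulAut_A4 : Group.IsSolvable (MulAut (alternatingGroup (Fin 4))) := by
  have : kleinA4.Characteristic := Subgroup.characteristic_iff_map_le.mpr fun α => by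
    rintro _ ⟨a, ha, rfl⟩
    rw [SetLike.mem_coe, mem_kleinA4] at ha
    rw [mem_kleinA4, ← map_mul, ha, map_one]
  have h4 : Nat.card kleinA4 = 4 := by
    show Nat.card {a : alternatingGroup (Fin 4) // a * a = 1} = 4
    rw [Nat.card_eq_fintype_card]; decide +kernel
  have h12 : Nat.card (alternatingGroup (Fin 4)) = 12 := by
    rw [Nat.card_eq_fintype_card]; decide +kernel
  refine isSolvable_mulAut_of_char kleinA4 (isSolvable_mulAut_small _ h4.le) (isSolvable_mulAut_small _ ?_)
  have := Subgroup.card_eq_card_quotient_mul_card_subgroup kleinA4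
  rw [h4, h12] at this
  omega

/-- The automorphism group of `S4` is solvable. -/
theorem isSolvable_mulAut_S4 : Group.IsSolvable (MulAut (Equiv.Perm (Fin 4))) := by
  have hi : (alternatingGroup (Fin 4)).index = 2 := alternatingGroup.index_eq_two
  have : (alternatingGroup (Fin 4)).Characteristic := Subgroup.characteristic_iff_map_eq.mpr fun α => by
    refine Equiv.Perm.eq_alternatingGroup_of_index_eq_two ?_
    exact (Subgroup.index_map_equiv _ α).trans hi
  refine isSolvable_mulAut_of_char (alternatingGroup (Fin 4)) isSolvable_mulAut_A4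
    (isSolvable_mulAut_small _ ?_)
  rw [← Subgroup.index_eq_card, hi]; norm_num

/-- A solvable group acting fixed-point-freely has solvable automorphism group. -/
theorem isSolvable_mulAut_of_fpf {H : Type*} [Group H] [Finite H] [Group.IsSolvable H] {K : Type u}
    [Group K] [Finite K] [Nontrivial K] {ψ : H →* MulAut K}
    (hfpf : ∀ e : H, e ≠ 1 → ∀ x : K, ψ e x = x → x = 1) : Group.IsSolvable (MulAut H) := by
  by_cases hZ : IsZGroup H
  · exact isSolvable_mulAut_zgroup H
  have main : ∀ {Q : Type} [Group Q] [Finite Q], Group.IsSolvable (MulAut Q) →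
      ∀ f : H →* Q, Function.Surjective f → IsZGroup f.ker →
      (∀ g : H →* Q, Function.Surjective g → g.ker.Normal → IsZGroup g.ker → IsQuotientKernel g.ker) →
      Group.IsSolvable (MulAut H) := by
    intro Q _ _ hQ f hf hker hmk
    have : f.ker.Characteristic := Subgroup.characteristic_iff_comap_eq.mpr fun α => by
      have hs : Function.Surjective (f.comp α.toMonoidHom) := hf.comp α.surjective
      have hz : IsZGroup (f.comp α.toMonoidHom).ker :=
        IsZGroup.of_injective
          (f := { toFun := fun x => (⟨α x.1, x.2⟩ : f.ker), map_one' := Subtype.ext α.map_one,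
                  map_mul' := fun x y => Subtype.ext (α.map_mul x.1 y.1) })
          fun x y h => Subtype.ext (α.injective (congrArg Subtype.val h))
      have := quotientKernel_unique hfpf (hmk _ hs inferInstance hz) (hmk f hf inferInstance hker)
      rw [← MonoidHom.comap_ker] at this
      exact this
    let e := QuotientGroup.quotientKerEquivOfSurjective f hf
    have := hQ
    have hq : Group.IsSolvable (MulAut (H ⧸ f.ker)) :=
      Group.isSolvable_of_isSolvable_injective (f := (MulAut.congr e).toMonoidHom) (MulAut.congr e).injective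
    exact isSolvable_mulAut_of_char f.ker (isSolvable_mulAut_zgroup _) hq
  have cyc : ∀ N : Subgroup H, IsZGroup N → ∀ (p : ℕ) [Fact p.Prime] (P : Sylow p N), IsCyclic P :=
    fun N hN p hp P => hN.isZGroup p hp.out P
  rcases quotient_of_solvable hfpf hZ with ⟨f, hf, hk⟩ | ⟨f, hf, hk⟩ | ⟨f, hf, hk⟩
  · exact main (isSolvable_mulAut_small _ (by rw [Nat.card_eq_fintype_card]; decide +kernel)) f hf hk
      fun g hg hn hz => ⟨hn, fun p _ P => cyc _ hz p P, Or.inr (Or.inl ⟨g, hg, rfl⟩)⟩
  · exact main isSolvable_mulAut_A4 f hf hk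
      fun g hg hn hz => ⟨hn, fun p _ P => cyc _ hz p P, Or.inr (Or.inr (Or.inl ⟨g, hg, rfl⟩))⟩
  · exact main isSolvable_mulAut_S4 f hf hk
      fun g hg hn hz => ⟨hn, fun p _ P => cyc _ hz p P, Or.inr (Or.inr (Or.inr (Or.inl ⟨g, hg, rfl⟩)))⟩

end Cfsg.Agent.H21.TIHall
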