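import Cfsg.Prelude.Def_OddOrderLocal
import Cfsg.Agent.H21.TIHall.AutSolvable
import Cfsg.Agent.H20.Sylow
import Cfsg.Agent.H20.FixedPoints
import Cfsg.Agent.H88.TIHall
import Mathlib.GroupTheory.SchurZassenhaus

/-!
Separable groups with a TI Hall subgroup.
-/

namespace Cfsg.Agent.H21.TIHall

open Subgroup
open scoped Pointwise

universe u

variable {G : Type u} [Group G] [Finite G] {H : Subgroup G}

local notation "Nm" => Subgroup.normalizer

omit [Finite G] in
/-- An element moving a nontrivial element of `H` into `H` normalises `H`. -/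
theorem mem_normalizer_of_ti (hTI : Cfsg.IsTISubset (H : Set G)) {g x : G} (hx : x ∈ H) (hx1 : x ≠ 1)
    (hgx : g * x * g⁻¹ ∈ H) : g ∈ Nm (H : Set G) :=
  by_contra fun hg => hx1 (hTI g hg x hx hgx)

/-- A TI subgroup that is a Hall subgroup of its normaliser is a Hall subgroup. -/
theorem coprime_index (hTI : Cfsg.IsTISubset (H : Set G))
    (hHall : (Nat.card H).Coprime (H.subgroupOf (Nm (H : Set G))).index) :
    (Nat.card H).Coprime H.index := by
  refine Nat.coprime_of_dvd fun p hp hpH hpi => ?_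
  have := Fact.mk hp
  obtain ⟨P⟩ : Nonempty (Sylow p H) := inferInstance
  set P' := (P : Subgroup H).map H.subtype with hP'
  have hcard : Nat.card P' = p ^ (Nat.card H).factorization p := H20.card_map_sylow P
  obtain ⟨S, hS⟩ := (H20.isPGroup_map_sylow P).exists_le_sylow
  set T := (S : Subgroup G) ⊓ Nm (H : Set G)
  have hPT : P' ≤ T := le_inf hS ((map_subtype_le _).trans le_normalizer)
  have hT : Nat.card T ≤ Nat.card P' := by
    obtain ⟨k, hk⟩ := IsPGroup.iff_card.mp (S.2.to_le (inf_le_left : T ≤ S))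
    have hd : Nat.card T ∣ Nat.card (Nm (H : Set G)) := card_dvd_of_le inf_le_right
    rw [← (H.subgroupOf (Nm (H : Set G))).index_mul_card,
      Nat.card_congr (subgroupOfEquivOfLe (le_normalizer (H := H))).toEquiv, hk] at hd
    have hc : (p ^ k).Coprime (H.subgroupOf (Nm (H : Set G))).index :=
      Nat.Coprime.pow_left k (hHall.coprime_dvd_left hpH)
    have hkH := hc.dvd_of_dvd_mul_left hd
    rw [hk, hcard]
    exact Nat.pow_le_pow_right hp.pos
      ((Nat.Prime.pow_dvd_iff_le_factorization hp Nat.card_pos.ne').mp hkH)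
  have hTP : T = P' := (eq_of_le_of_card_ge hPT hT).symm
  have hPS : P' = (S : Subgroup G) := by
    by_contra hne
    have : Group.IsNilpotent (S : Subgroup G) := S.2.isNilpotent
    have hlt : P'.subgroupOf S < ⊤ := lt_top_iff_ne_top.mpr fun e =>
      hne (le_antisymm hS (subgroupOf_eq_top.mp e))
    obtain ⟨x, hx, hxP⟩ := SetLike.exists_of_lt (Group.normalizerCondition_of_isNilpotent _ hlt)
    refine hxP ?_
    obtain ⟨u, huP, hu1⟩ : ∃ u ∈ P', u ≠ 1 := P'.bot_or_exists_ne_one.resolve_left fun e => by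
      rw [e, card_bot] at hcard
      exact (Nat.one_lt_pow (hp.factorization_pos_of_dvd Nat.card_pos.ne' hpH).ne' hp.one_lt).ne hcard
    have h2 : (x : G) * u * (x : G)⁻¹ ∈ P' := (mem_normalizer_iff.mp hx ⟨u, hS huP⟩).mp huP
    have hxT : (x : G) ∈ T :=
      ⟨x.2, mem_normalizer_of_ti hTI (map_subtype_le _ huP) hu1 (map_subtype_le _ h2)⟩
    rw [hTP] at hxT
    exact hxT
  have h3 := S.not_dvd_index
  rw [← hPS] at h3
  exact h3 (hpi.trans (index_dvd_of_le (map_subtype_le (P : Subgroup H))))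

/-- The largest normal subgroup of order prime to `|H|`. -/
theorem coprime_radical (H : Subgroup G) :
    (sSup {K : Subgroup G | K.Normal ∧ (Nat.card K).Coprime (Nat.card H)}).Normal ∧
      (Nat.card (sSup {K : Subgroup G | K.Normal ∧ (Nat.card K).Coprime (Nat.card H)} :
        Subgroup G)).Coprime (Nat.card H) := by
  set s := {K : Subgroup G | K.Normal ∧ (Nat.card K).Coprime (Nat.card H)}
  obtain ⟨M, hM, hmax⟩ := wellFounded_gt.has_min s
    ⟨⊥, inferInstance, by rw [card_bot]; exact Nat.coprime_one_left _⟩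
  suffices sSup s = M by rw [this]; exact hM
  refine le_antisymm (sSup_le fun K hK => ?_) (le_sSup hM)
  have := hM.1
  have := hK.1
  have hmem : K ⊔ M ∈ s := ⟨inferInstance,
    (hK.2.mul_left hM.2).coprime_dvd_left (H88.TIHall.card_sup_dvd K M)⟩
  by_contra hle
  exact hmax _ hmem (lt_of_le_of_ne le_sup_right fun e => hle (e.symm ▸ le_sup_left))

variable {O : Subgroup G}

/-- A normal subgroup above `O` whose extra order only involves primes of `|H|` is covered by
`O` and its intersection with `H`. -/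
theorem sup_inf_eq (hHc : (Nat.card H).Coprime H.index) (hOc : (Nat.card O).Coprime (Nat.card H))
    {X : Subgroup G} [X.Normal] (hOX : O ≤ X)
    (hπ : ∀ q : ℕ, q.Prime → q ∣ O.relIndex X → q ∣ Nat.card H) :
    Nat.card (H ⊓ X : Subgroup G) = O.relIndex X := by
  have hX : Nat.card X = Nat.card O * O.relIndex X := by
    rw [← relIndex_bot_left X, ← relIndex_mul_relIndex ⊥ O X bot_le hOX, relIndex_bot_left]
  have h2 : Nat.card X = Nat.card (H ⊓ X : Subgroup G) * H.relIndex X := by
    rw [← relIndex_bot_left X, ← relIndex_mul_relIndex ⊥ (H ⊓ X) X bot_le inf_le_right,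
      relIndex_bot_left, inf_relIndex_right]
  have h3 : H.relIndex X ∣ H.index := by
    -- compare with the subgroup generated by `H` and `X`
    have e1 : X.relIndex (H ⊔ X) * Nat.card X = Nat.card (H ⊔ X : Subgroup G) := by
      rw [mul_comm, ← relIndex_bot_left X, relIndex_mul_relIndex ⊥ X _ bot_le le_sup_right, relIndex_bot_left]
    have e2 : H.relIndex (H ⊔ X) * Nat.card H = Nat.card (H ⊔ X : Subgroup G) := by
      rw [mul_comm, ← relIndex_bot_left H, relIndex_mul_relIndex ⊥ H _ bot_le le_sup_left, relIndex_bot_left]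
    have e3 : Nat.card H = Nat.card (H ⊓ X : Subgroup G) * X.relIndex H := by
      rw [← relIndex_bot_left H, ← relIndex_mul_relIndex ⊥ (H ⊓ X) H bot_le inf_le_left,
        relIndex_bot_left, inf_relIndex_left]
    have e4 : X.relIndex (H ⊔ X) = X.relIndex H := relIndex_sup_right H X
    rw [e4, h2] at e1
    rw [e3] at e2
    have h5 : Nat.card (H ⊓ X : Subgroup G) * X.relIndex H * H.relIndex (H ⊔ X) =
        Nat.card (H ⊓ X : Subgroup G) * X.relIndex H * H.relIndex X := by
      rw [mul_comm _ (H.relIndex (H ⊔ X)), e2, ← e1]; ring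
    have h6 := Nat.eq_of_mul_eq_mul_left (Nat.mul_pos Nat.card_pos
      (Nat.pos_of_ne_zero index_ne_zero_of_finite)) h5
    rw [← h6]
    exact Dvd.intro _ (relIndex_mul_index le_sup_left)
  have hde : (O.relIndex X).Coprime (H.relIndex X) :=
    Nat.coprime_of_dvd fun q hq hd he => hq.not_dvd_one
      (hHc ▸ Nat.dvd_gcd (hπ q hq hd) (he.trans h3))
  have hkO : (Nat.card (H ⊓ X : Subgroup G)).Coprime (Nat.card O) :=
    (hOc.symm).coprime_dvd_left (card_dvd_of_le inf_le_left)
  rw [hX] at h2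
  refine Nat.dvd_antisymm ?_ ?_
  · exact hkO.dvd_of_dvd_mul_left (Dvd.intro _ h2.symm)
  · exact hde.dvd_of_dvd_mul_right (Dvd.intro_left _ h2)

section Radical

variable (hTI : Cfsg.IsTISubset (H : Set G)) (hnn : ¬ H.Normal) (hHc : (Nat.card H).Coprime H.index)
  (hOn : O.Normal) (hOc : (Nat.card O).Coprime (Nat.card H))
  (hOmax : ∀ K : Subgroup G, K.Normal → (Nat.card K).Coprime (Nat.card H) → K ≤ O)

include hTI hnn hHc hOn hOc hOmax in
/-- The group is the product of the radical and the normaliser. -/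
theorem sup_normalizer_eq_top
    (hsep : ∃ (n : ℕ) (M : Fin (n + 1) → Subgroup G), M 0 = ⊥ ∧ M (Fin.last n) = ⊤ ∧ Monotone M ∧
      (∀ i, (M i).Normal) ∧ ∀ i : Fin n,
        (∀ q : ℕ, q.Prime → q ∣ (M i.castSucc).relIndex (M i.succ) → q ∣ Nat.card H) ∨
          ((M i.castSucc).relIndex (M i.succ)).Coprime (Nat.card H)) :
    O ⊔ Nm (H : Set G) = ⊤ := by
  have hH1 : H ≠ ⊥ := fun e => hnn (e ▸ inferInstance)
  obtain ⟨n, M, h0, h1, hmono, hn, hfac⟩ := hsep
  obtain ⟨i, hi1, hi2⟩ : ∃ i : Fin n, M i.castSucc ≤ O ∧ ¬ M i.succ ≤ O := by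
    by_contra hne
    push Not at hne
    have hall : ∀ i, M i ≤ O := by
      intro i
      induction i using Fin.induction with
      | zero => rw [h0]; exact bot_le
      | succ i ih => exact hne i ih
    have hH : H ≤ O := le_trans le_top (h1 ▸ hall (Fin.last n))
    exact hH1 (card_eq_one.mp (Nat.eq_one_of_dvd_coprimes hOc (card_dvd_of_le hH) dvd_rfl))
  have := hn i.succ
  set X := O ⊔ M i.succ with hX
  have hOX : O ≤ X := le_sup_left
  have hd : O.relIndex X ∣ (M i.castSucc).relIndex (M i.succ) := by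
    rw [hX, sup_comm, relIndex_sup_right]
    exact relIndex_dvd_of_le_left _ hi1
  have hgt : O.relIndex X ≠ 1 := fun e => hi2 (le_sup_right.trans (relIndex_eq_one.mp e))
  have hπ : ∀ q : ℕ, q.Prime → q ∣ O.relIndex X → q ∣ Nat.card H := by
    rcases hfac i with h | h
    · exact fun q hq hqd => h q hq (hqd.trans hd)
    · exfalso
      refine hi2 (le_sup_right.trans (hOmax X inferInstance ?_))
      rw [← relIndex_bot_left X, ← relIndex_mul_relIndex ⊥ O X bot_le hOX, relIndex_bot_left]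
      exact hOc.mul_left (h.coprime_dvd_left hd)
  have hK : Nat.card (H ⊓ X : Subgroup G) = O.relIndex X := sup_inf_eq hHc hOc hOX hπ
  have hXsup : X = O ⊔ (H ⊓ X) := by
    refine (eq_of_le_of_card_ge (sup_le hOX inf_le_right) ?_).symm
    rw [H20.card_sup_of_coprime (le_normalizer_of_normal O _)
      ((hOc.symm).coprime_dvd_left (card_dvd_of_le inf_le_left)), hK, ← relIndex_bot_left X,
      ← relIndex_mul_relIndex ⊥ O X bot_le hOX, relIndex_bot_left]
  obtain ⟨p, hp, hpd⟩ := Nat.exists_prime_and_dvd hgt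
  have := Fact.mk hp
  obtain ⟨P⟩ : Nonempty (Sylow p (H ⊓ X : Subgroup G)) := inferInstance
  set P' := (P : Subgroup (H ⊓ X : Subgroup G)).map (H ⊓ X).subtype with hP'
  have hP'H : P' ≤ H ⊓ X := map_subtype_le _
  have hpO : ¬ p ∣ Nat.card O := fun h => hp.not_dvd_one (hOc ▸ Nat.dvd_gcd h (hπ p hp hpd))
  have hcard : Nat.card P' = p ^ (Nat.card X).factorization p := by
    rw [H20.card_map_sylow P, hK, ← relIndex_bot_left X, ← relIndex_mul_relIndex ⊥ O X bot_le hOX,
      relIndex_bot_left, Nat.factorization_mul Nat.card_pos.ne'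
        (ne_zero_of_dvd_ne_zero Nat.card_pos.ne' (relIndex_dvd_card O X)), Finsupp.add_apply,
      Nat.factorization_eq_zero_of_not_dvd hpO, zero_add]
  obtain ⟨Q, hQ⟩ := H20.exists_sylow_map_eq (K := X) (hP'H.trans inf_le_right) hcard
  have hfr := Sylow.normalizer_sup_eq_top Q
  rw [hQ] at hfr
  have hP1 : P' ≠ ⊥ := fun e => by
    rw [e, card_bot] at hcard
    refine (Nat.one_lt_pow (hp.factorization_pos_of_dvd Nat.card_pos.ne' ?_).ne' hp.one_lt).ne hcard
    exact hpd.trans (relIndex_dvd_card O X)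
  obtain ⟨u, huP, hu1⟩ := P'.bot_or_exists_ne_one.resolve_left hP1
  have hNP : Nm (P' : Set G) ≤ Nm (H : Set G) := fun g hg =>
    mem_normalizer_of_ti hTI (hP'H huP).1 hu1 (hP'H ((mem_normalizer_iff.mp hg u).mp huP)).1
  refine eq_top_iff.mpr (hfr ▸ sup_le (hNP.trans le_sup_right) ?_)
  rw [hXsup]
  exact sup_le le_sup_left ((inf_le_left.trans le_normalizer).trans le_sup_right)

include hTI hnn hOn hOc in
/-- Coprime action: the group `H` acts fixed-point-freely on a nontrivial group. -/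
theorem exists_fpf [hOs : Group.IsSolvable O] (htop : O ⊔ Nm (H : Set G) = ⊤) :
    ∃ (K : Type u) (_ : Group K) (_ : Finite K) (_ : Nontrivial K) (ψ : H →* MulAut K),
      ∀ h : H, h ≠ 1 → ∀ v : K, ψ h v = v → v = 1 := by
  set C := O ⊓ Nm (H : Set G) with hC
  have hCO : ¬ O ≤ C := fun e => by
    refine hnn ?_
    rw [← normalizer_eq_top_iff, eq_top_iff, ← htop]
    exact sup_le (e.trans inf_le_right) le_rfl
  obtain ⟨q, hq, hqne⟩ : ∃ q : ℕ, q.Prime ∧ ∀ Q : Subgroup G,
      Nat.card Q = q ^ (Nat.card O).factorization q → ¬ Q ≤ C := by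
    by_contra hne
    push Not at hne
    refine hCO (eq_of_le_of_card_ge (inf_le_left : C ≤ O) ?_).ge
    refine Nat.le_of_dvd Nat.card_pos ((Nat.dvd_iff_prime_pow_dvd_dvd _ _).mpr fun q k hq hk => ?_)
    obtain ⟨Q, hQc, hQC⟩ := hne q hq
    refine (Nat.pow_dvd_pow q ((Nat.Prime.pow_dvd_iff_le_factorization hq Nat.card_pos.ne').mp hk)).trans ?_
    rw [← hQc]
    exact card_dvd_of_le hQC
  have := Fact.mk hq
  obtain ⟨P, hP⟩ := H20.exists_invariant_sylow (A := H) (K := O) (le_normalizer_of_normal O H)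
    hOc.symm (Or.inr hOs) q
  set Q := (P : Subgroup O).map O.subtype with hQdef
  have hQO : Q ≤ O := map_subtype_le _
  have hQC : ¬ Q ≤ C := hqne Q (H20.card_map_sylow P)
  set C₁ := Q ⊓ C with hC₁
  have hC₁H : H ≤ Nm (C₁ : Set G) := by
    exact H20.le_normalizer_inf hP
      (H20.le_normalizer_inf (le_normalizer_of_normal O H) (le_normalizer.trans le_normalizer))
  set N₁ := Q ⊓ Nm (C₁ : Set G) with hN₁
  have hN₁H : H ≤ Nm (N₁ : Set G) := H20.le_normalizer_inf hP (hC₁H.trans le_normalizer)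
  have hC₁N₁ : C₁ ≤ N₁ := le_inf inf_le_left le_normalizer
  set N₂ := C₁.subgroupOf N₁
  have hn₂ : N₂.Normal := normal_subgroupOf_of_le_normalizer inf_le_right
  have hnontriv : Nontrivial (N₁ ⧸ N₂) := by
    refine QuotientGroup.nontrivial_iff.mpr fun e => ?_
    have : Group.IsNilpotent Q := (H20.isPGroup_map_sylow P).isNilpotent
    have hlt : C₁.subgroupOf Q < ⊤ := lt_top_iff_ne_top.mpr fun e' =>
      hQC ((subgroupOf_eq_top.mp e').trans inf_le_right)
    obtain ⟨x, hx, hxC⟩ := SetLike.exists_of_lt (Group.normalizerCondition_of_isNilpotent _ hlt)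
    have hxN : (x : G) ∈ N₁ := by
      refine ⟨x.2, mem_normalizer_iff.mpr fun c => ⟨fun hc => ?_, fun hc => ?_⟩⟩
      · exact (mem_normalizer_iff.mp hx ⟨c, hc.1⟩).mp hc
      · have hcQ : c ∈ Q := by
          have := mul_mem (mul_mem (inv_mem x.2) hc.1) x.2
          simpa [mul_assoc] using this
        exact (mem_normalizer_iff.mp hx ⟨c, hcQ⟩).mpr hc
    exact hxC (subgroupOf_eq_top.mp e hxN)
  let φ : H →* MulAut N₁ := conjHom hN₁H
  have hmap : ∀ a, N₂.map (φ a).toMonoidHom = N₂ := fun a => by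
    refine eq_of_le_of_card_ge ?_ (card_map_of_injective (φ a).injective).ge
    rintro _ ⟨w, hw, rfl⟩
    exact (mem_normalizer_iff.mp (hC₁H a.2) (w : G)).mp hw
  refine ⟨N₁ ⧸ N₂, inferInstance, inferInstance, hnontriv, quotAut φ N₂ hmap, fun h hh v hv => ?_⟩
  induction v using QuotientGroup.induction_on with | H x => ?_
  rw [QuotientGroup.eq_one_iff]
  -- powers of `h` fix the coset
  have hfix : ∀ a ∈ zpowers (h : G), (x : G)⁻¹ * (a * x * a⁻¹) ∈ C₁ := by
    intro a ha
    obtain ⟨j, rfl⟩ := mem_zpowers_iff.mp ha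
    have hz : h ^ j ∈ (MulAction.stabilizer (MulAut (N₁ ⧸ N₂)) (x : N₁ ⧸ N₂)).comap (quotAut φ N₂ hmap) :=
      zpow_mem (show h ∈ _ from hv) j
    have hj : quotAut φ N₂ hmap (h ^ j) (x : N₁ ⧸ N₂) = x := hz
    rw [quotAut_mk] at hj
    have := QuotientGroup.eq.mp hj.symm
    rwa [mem_subgroupOf, Subgroup.coe_mul, Subgroup.coe_inv,
      show ((φ (h ^ j) x : N₁) : G) = ((h ^ j : H) : G) * x * ((h ^ j : H) : G)⁻¹ from rfl,
      Subgroup.coe_zpow] at this
  have hzle : zpowers (h : G) ≤ H := zpowers_le.mpr h.2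
  obtain ⟨m, hm, hmc⟩ := H20.exists_mul_mem_centralizer (hzle.trans hC₁H)
    ((hOc.symm.coprime_dvd_left (card_dvd_of_le hzle)).coprime_dvd_right
      (card_dvd_of_le (inf_le_left.trans hQO)))
    (Or.inl (Group.isSolvable_of_comm fun a b => mul_comm' a b)) hfix
  have hxm : (x : G) * m ∈ Q := mul_mem x.2.1 hm.1
  have hNm : (x : G) * m ∈ Nm (H : Set G) := by
    refine mem_normalizer_of_ti hTI h.2 (fun e => hh (Subtype.ext e)) ?_
    rw [← mem_centralizer_iff.mp hmc h (mem_zpowers _), mul_inv_cancel_right]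
    exact h.2
  have hres : (x : G) * m ∈ C₁ := ⟨hxm, hQO hxm, hNm⟩
  show (x : G) ∈ C₁
  simpa using mul_mem hres (inv_mem hm)

include hHc hOn hOc hOmax in
/-- Solvability from that of the radical and of `H`. -/
theorem isSolvable_of_radical (htop : O ⊔ Nm (H : Set G) = ⊤) [Group.IsSolvable O] [Group.IsSolvable H]
    (haut : Group.IsSolvable (MulAut H)) : Group.IsSolvable G := by
  set N := Nm (H : Set G)
  let χ : N →* MulAut H := conjHom le_rfl
  set Z := N ⊓ centralizer (H : Set G) with hZ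
  have hmem : ∀ z : Z, ∀ a ∈ H, a * (z : G) = z * a := fun z a ha => mem_centralizer_iff.mp z.2.2 a ha
  set A := H.subgroupOf Z with hA
  have hAc : ∀ a ∈ A, ∀ z : Z, a * z = z * a := fun a ha z => Subtype.ext (hmem z a ha)
  have hAn : A.Normal := ⟨fun a ha z => by rw [← hAc a ha z, mul_inv_cancel_right]; exact ha⟩
  have hAH : Nat.card A ∣ Nat.card H := by
    refine card_dvd_of_injective ((Z.subtype.comp A.subtype).codRestrict H fun a => a.2) fun a b e => ?_
    exact Subtype.ext (Subtype.ext (congrArg (fun h : H => (h : G)) e))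
  have hAcop : (Nat.card A).Coprime A.index := by
    have h1 : Nat.card A ∣ Nat.card H := hAH
    have h2 : A.index ∣ H.index := by
      have : (H.subgroupOf N).Normal := normal_in_normalizer
      show H.relIndex Z ∣ H.index
      rw [← relIndex_subgroupOf (K := Z) (L := N) inf_le_left]
      exact (relIndex_dvd_index_of_normal _ _).trans (relIndex_dvd_index_of_le le_normalizer)
    exact (hHc.coprime_dvd_left h1).coprime_dvd_right h2
  obtain ⟨M₀, hM₀⟩ := exists_right_complement'_of_coprime hAcop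
  have hM₀n : M₀.Normal := ⟨fun m hm z => by
    obtain ⟨a, ha, b, hb, rfl⟩ : z ∈ ((A : Set Z) * (M₀ : Set Z)) := by
      rw [hM₀.mul_eq]; trivial
    have hk : b * m * b⁻¹ ∈ M₀ := mul_mem (mul_mem hb hm) (inv_mem hb)
    rw [show a * b * m * (a * b)⁻¹ = a * (b * m * b⁻¹) * a⁻¹ by group, hAc a ha, mul_inv_cancel_right]
    exact hk⟩
  have hidx : M₀.index = Nat.card A := hM₀.index_eq_card
  have hM₀c : (Nat.card M₀).Coprime (Nat.card H) := by
    refine Nat.coprime_of_dvd fun p hp hd hpH => ?_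
    have h1 : Nat.card M₀ = A.index := hM₀.symm.index_eq_card.symm
    have h2 : A.index ∣ H.index := by
      have : (H.subgroupOf N).Normal := normal_in_normalizer
      show H.relIndex Z ∣ H.index
      rw [← relIndex_subgroupOf (K := Z) (L := N) inf_le_left]
      exact (relIndex_dvd_index_of_normal _ _).trans (relIndex_dvd_index_of_le le_normalizer)
    exact hp.not_dvd_one (hHc ▸ Nat.dvd_gcd hpH ((h1 ▸ hd).trans h2))
  -- elements of order prime to `|H|` in `Z` lie in `M₀`
  have hin : ∀ z : Z, (orderOf z).Coprime (Nat.card H) → z ∈ M₀ := fun z hz => by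
    rw [← QuotientGroup.eq_one_iff, ← orderOf_eq_one_iff]
    refine Nat.eq_one_of_dvd_coprimes hz (orderOf_map_dvd (QuotientGroup.mk' M₀) z) ?_
    refine (_root_.orderOf_dvd_natCard _).trans ?_
    rw [← index_eq_card, hidx]
    exact hAH
  set M := M₀.map Z.subtype with hMdef
  have hconj : ∀ g ∈ N, ∀ m ∈ M, g * m * g⁻¹ ∈ M := by
    rintro g hg _ ⟨m, hm, rfl⟩
    have hgz : g * (m : G) * g⁻¹ ∈ Z := by
      refine ⟨N.mul_mem (N.mul_mem hg m.2.1) (N.inv_mem hg), mem_centralizer_iff.mpr fun a ha => ?_⟩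
      have ha' : g⁻¹ * a * g ∈ H := (mem_normalizer_iff''.mp hg a).mp ha
      calc a * (g * m * g⁻¹) = g * ((g⁻¹ * a * g) * m) * g⁻¹ := by group
        _ = g * (m * (g⁻¹ * a * g)) * g⁻¹ := by rw [hmem m _ ha']
        _ = g * m * g⁻¹ * a := by group
    refine ⟨⟨_, hgz⟩, hin _ ?_, rfl⟩
    rw [orderOf_mk, show g * (m : G) * g⁻¹ = MulAut.conj g (m : G) from rfl, MulEquiv.orderOf_eq,
      ← orderOf_mk (m : G) m.2]
    exact hM₀c.coprime_dvd_left (Subgroup.orderOf_dvd_natCard _ hm)
  have hOM : (O ⊔ M).Normal := by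
    rw [← normalizer_eq_top_iff, eq_top_iff, ← htop]
    refine sup_le (le_trans le_sup_left le_normalizer) fun g hg => ?_
    refine mem_normalizer_iff.mpr ?_
    have key : ∀ g ∈ N, O ⊔ M ≤ (O ⊔ M).comap (MulAut.conj g).toMonoidHom := fun g hg =>
      sup_le (fun o ho => mem_sup_left (hOn.conj_mem o ho g)) fun m hm => mem_sup_right (hconj g hg m hm)
    refine fun a => ⟨fun ha => key g hg ha, fun ha => ?_⟩
    have := key g⁻¹ (inv_mem hg) ha
    simpa [mul_assoc] using this
  have hMO : M ≤ O := le_sup_right.trans (hOmax _ hOM (by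
    refine Nat.Coprime.coprime_dvd_left ?_ ((hM₀c).mul_left hOc)
    have := H88.TIHall.card_sup_dvd M O
    rwa [sup_comm, show Nat.card M = Nat.card M₀ from card_map_of_injective Z.subtype_injective]
      at this))
  have hM₀s : Group.IsSolvable M₀ :=
    Group.isSolvable_of_isSolvable_injective
      (f := (Z.subtype.comp M₀.subtype).codRestrict O fun m => hMO ⟨m, m.2, rfl⟩)
      fun a b e => Subtype.ext (Subtype.ext (congrArg (fun o : O => (o : G)) e))
  have hQs : Group.IsSolvable (Z ⧸ M₀) := by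
    have : Group.IsSolvable A := Group.isSolvable_of_comm fun a b => Subtype.ext (hAc a a.2 b)
    refine Group.isSolvable_of_surjective (f := (QuotientGroup.mk' M₀).comp A.subtype) ?_ (G := A)
    intro q
    obtain ⟨z, rfl⟩ := QuotientGroup.mk'_surjective M₀ q
    obtain ⟨a, ha, b, hb, rfl⟩ : z ∈ ((A : Set Z) * (M₀ : Set Z)) := by rw [hM₀.mul_eq]; trivial
    exact ⟨⟨a, ha⟩, (QuotientGroup.eq.mpr (by simpa using hb) : (a : Z ⧸ M₀) = ((a * b : Z) : Z ⧸ M₀))⟩
  have hZs : Group.IsSolvable Z :=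
    (Group.isSolvable_iff_subgroup_quotient M₀).mpr ⟨hM₀s, hQs⟩
  have hN : Group.IsSolvable N := by
    refine Group.isSolvable_of_ker_le_range (inclusion (inf_le_left : Z ≤ N)) χ fun g hg => ?_
    refine ⟨⟨g, g.2, mem_centralizer_iff.mpr fun a ha => ?_⟩, Subtype.ext rfl⟩
    have h1 : (g : G) * a * (g : G)⁻¹ = a :=
      congrArg (fun e : MulAut H => (e ⟨a, ha⟩ : G)) (hg : χ g = 1)
    exact (mul_inv_eq_iff_eq_mul.mp h1).symm
  have hq : Group.IsSolvable (G ⧸ O) := by
    refine Group.isSolvable_of_surjective (f := (QuotientGroup.mk' O).comp N.subtype) ?_ (G := N)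
    intro q
    obtain ⟨g, rfl⟩ := QuotientGroup.mk'_surjective O q
    obtain ⟨o, ho, n, hn, rfl⟩ : g ∈ ((O : Set G) * (N : Set G)) := by
      rw [← normal_mul, htop]; trivial
    refine ⟨⟨n, hn⟩, (QuotientGroup.eq.mpr ?_ : (n : G ⧸ O) = ((o * n : G) : G ⧸ O))⟩
    have := hOn.conj_mem o ho n⁻¹
    simpa [mul_assoc] using this
  exact (Group.isSolvable_iff_subgroup_quotient O).mpr ⟨inferInstance, hq⟩

end Radical

end Cfsg.Agent.H21.TIHall
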